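import Mathlib
import Cfsg.Prelude.Def_ClassicalGeometry
import Cfsg.Agent.Lib.Orth.Bridge

/-!
From a linear representation on a space `X`, with a subquotient `E / L` identified with coordinates, to a
homomorphism into a matrix isometry group.
-/

set_option autoImplicit false

namespace Cfsg.Agent.Lib.PermRepO.Basic

open Matrix Cfsg

variable {K : Type*} [Field K] {ι : Type} [Fintype ι] [DecidableEq ι] {G : Type*} [Group G]
  {X : Type*} [AddCommGroup X] [Module K X]

theorem exists_hom (ρ : G →* (X →ₗ[K] X)) (emb : (ι → K) →ₗ[K] X) (proj : X →ₗ[K] (ι → K))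
    (E L : Submodule K X)
    (hemb : ∀ x, emb x ∈ E) (hρE : ∀ g v, v ∈ E → ρ g v ∈ E) (hpe : ∀ x, proj (emb x) = x)
    (hep : ∀ v ∈ E, v - emb (proj v) ∈ L) (hρL : ∀ g l, l ∈ L → ρ g l ∈ L) (hpL : ∀ l ∈ L, proj l = 0)
    (Q : (ι → K) → K) (QX : X → K) (hQ1 : ∀ x, QX (emb x) = Q x) (hQ2 : ∀ g v, QX (ρ g v) = QX v)
    (hQ3 : ∀ v ∈ E, ∀ l ∈ L, QX (v + l) = QX v)
    (hinj : ∀ g, (∀ v ∈ E, ρ g v - v ∈ L) → g = 1) :
    ∃ f : G →* isometryGroup K Q, Function.Injective f ∧
      ∀ g x, ((f g : GL ι K) : Matrix ι ι K) *ᵥ x = proj (ρ g (emb x)) := by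
  -- decomposition of an element of `E`
  have hdec : ∀ v ∈ E, ∃ l ∈ L, v = emb (proj v) + l := fun v hv =>
    ⟨v - emb (proj v), hep v hv, by abel⟩
  let T : G → ((ι → K) →ₗ[K] (ι → K)) := fun g => proj ∘ₗ ρ g ∘ₗ emb
  have hT : ∀ g x, T g x = proj (ρ g (emb x)) := fun _ _ => rfl
  have hTmul : ∀ g h, T (g * h) = T g ∘ₗ T h := by
    intro g h
    refine LinearMap.ext fun x => ?_
    show proj (ρ (g * h) (emb x)) = proj (ρ g (emb (proj (ρ h (emb x)))))
    rw [map_mul]
    show proj (ρ g (ρ h (emb x))) = _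
    obtain ⟨l, hl, hv⟩ := hdec _ (hρE h _ (hemb x))
    conv_lhs => rw [hv]
    rw [map_add, map_add, hpL _ (hρL g l hl), add_zero]
  have hTone : T 1 = LinearMap.id := by
    refine LinearMap.ext fun x => ?_
    show proj (ρ 1 (emb x)) = x
    rw [map_one]
    exact hpe x
  let M : G →* Matrix ι ι K :=
    { toFun := fun g => LinearMap.toMatrix' (T g)
      map_one' := by
        rw [hTone, LinearMap.toMatrix'_id]
      map_mul' := fun g h => by
        rw [hTmul, LinearMap.toMatrix'_comp] }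
  let MU : G →* GL ι K := M.toHomUnits
  have hMU : ∀ g x, ((MU g : GL ι K) : Matrix ι ι K) *ᵥ x = proj (ρ g (emb x)) := by
    intro g x
    show LinearMap.toMatrix' (T g) *ᵥ x = _
    rw [LinearMap.toMatrix'_mulVec]
    rfl
  have hmem : ∀ g, MU g ∈ isometryGroup K Q := by
    intro g
    rw [Cfsg.Agent.Lib.Orth.Bridge.mem_isometryGroup_iff]
    intro x
    rw [hMU, ← hQ1, ← hQ1 x, ← hQ2 g (emb x)]
    obtain ⟨l, hl, hv⟩ := hdec _ (hρE g _ (hemb x))
    conv_rhs => rw [hv]
    rw [hQ3 _ (hemb _) l hl]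
  refine ⟨MU.codRestrict _ hmem, ?_, fun g x => hMU g x⟩
  rw [injective_iff_map_eq_one]
  intro g hg
  apply hinj
  have h1 : ∀ x, proj (ρ g (emb x)) = x := by
    intro x
    rw [← hMU]
    have h2 : MU g = 1 := congrArg Subtype.val hg
    rw [h2]
    simp
  intro v hv
  obtain ⟨l, hl, hv'⟩ := hdec v hv
  obtain ⟨l', hl', hw⟩ := hdec _ (hρE g _ (hemb (proj v)))
  rw [h1] at hw
  have : ρ g v - v = l' + ρ g l - l := by
    conv_lhs => rw [hv']
    rw [map_add, hw]
    abel
  rw [this]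
  exact L.sub_mem (L.add_mem hl' (hρL g l hl)) hl

section perm

variable {N : ℕ}

/-- The permutation action on vectors. -/
def P (σ : Equiv.Perm (Fin N)) : (Fin N → K) →ₗ[K] (Fin N → K) where
  toFun v := fun i => v (σ⁻¹ i)
  map_add' _ _ := rfl
  map_smul' _ _ := rfl

@[simp] theorem P_apply (σ : Equiv.Perm (Fin N)) (v : Fin N → K) (i : Fin N) : P σ v i = v (σ⁻¹ i) := rfl

/-- The permutation representation. -/
def permRep : Equiv.Perm (Fin N) →* ((Fin N → K) →ₗ[K] (Fin N → K)) where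
  toFun := P
  map_one' := rfl
  map_mul' σ τ := by
    refine LinearMap.ext fun v => funext fun j => ?_
    show v ((σ * τ)⁻¹ j) = v (τ⁻¹ (σ⁻¹ j))
    rw [_root_.mul_inv_rev]
    rfl

@[simp] theorem permRep_apply (σ : Equiv.Perm (Fin N)) : permRep (K := K) σ = P σ := rfl

/-- Functional: the sum of the coordinates. -/
def sumL : (Fin N → K) →ₗ[K] K := ∑ i, LinearMap.proj i

theorem sumL_apply (v : Fin N → K) : sumL v = ∑ i, v i := by
  simp [sumL]

theorem sumL_P (σ : Equiv.Perm (Fin N)) (v : Fin N → K) : sumL (P σ v) = sumL v := by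
  rw [sumL_apply, sumL_apply]
  exact Equiv.sum_comp σ⁻¹ v

/-- The permutation action on sum-zero vectors is faithful, even up to scalars. -/
theorem eq_one_of_scalar (hN : 3 ≤ N) (σ : Equiv.Perm (Fin N)) (s : K)
    (h : ∀ v : Fin N → K, sumL v = 0 → P σ v = s • v) : σ = 1 := by
  classical
  by_contra hne
  obtain ⟨a, ha⟩ : ∃ a, σ a ≠ a := by
    by_contra hcon
    push Not at hcon
    exact hne (Equiv.ext hcon)
  obtain ⟨c, hc1, hc2⟩ : ∃ c : Fin N, c ≠ a ∧ c ≠ σ a := by
    have h1 : ({a, σ a} : Finset (Fin N)).card < (Finset.univ : Finset (Fin N)).card := by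
      have h2 : ({a, σ a} : Finset (Fin N)).card ≤ 2 := Finset.card_le_two
      simp only [Finset.card_univ, Fintype.card_fin]
      omega
    obtain ⟨c, _, hc⟩ := Finset.exists_mem_notMem_of_card_lt_card h1
    simp only [Finset.mem_insert, Finset.mem_singleton, not_or] at hc
    exact ⟨c, hc.1, hc.2⟩
  have h0 : sumL (Pi.single a 1 - Pi.single c 1 : Fin N → K) = 0 := by
    rw [map_sub, sumL_apply, sumL_apply]
    simp
  have h1 := congrFun (h _ h0) (σ a)
  have h3 : σ⁻¹ (σ a) = a := by simp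
  simp only [P_apply, h3, Pi.sub_apply, Pi.smul_apply, smul_eq_mul] at h1
  rw [Pi.single_eq_same, Pi.single_eq_of_ne hc1.symm, Pi.single_eq_of_ne ha, Pi.single_eq_of_ne hc2.symm] at h1
  simp at h1

end perm

end Cfsg.Agent.Lib.PermRepO.Basic
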