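import Mathlib
import Cfsg.Prelude.Def_ClassicalGeometry
import Cfsg.Agent.Lib.Orth.Bridge

/-!
Transfer of isometry groups along a ring isomorphism of the base fields.
-/

set_option autoImplicit false

namespace Cfsg.Agent.Lib.PermRepO.Transfer

open Matrix Cfsg

variable {F K : Type*} [Field F] [Field K] {ι : Type} [Fintype ι] [DecidableEq ι]

/-- Action on vectors through a ring map. -/
def mapV (e : F →+* K) (v : ι → F) : ι → K := fun i => e (v i)

theorem mapV_mulVec (e : F →+* K) (g : GL ι F) (v : ι → F) :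
    mapV e (((g : GL ι F) : Matrix ι ι F) *ᵥ v) =
      ((Matrix.GeneralLinearGroup.map e g : GL ι K) : Matrix ι ι K) *ᵥ mapV e v := by
  funext i
  simp [mapV, Matrix.mulVec, dotProduct, map_sum]

/-- Isometry groups transfer along a ring isomorphism. -/
noncomputable def isoCongr (e : F ≃+* K) (Q₁ : (ι → F) → F) (Q₂ : (ι → K) → K)
    (h : ∀ v, Q₂ (mapV (e : F →+* K) v) = e (Q₁ v)) : isometryGroup F Q₁ ≃* isometryGroup K Q₂ where
  toFun g := ⟨Matrix.GeneralLinearGroup.map (e : F →+* K) g.1, by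
    rw [Cfsg.Agent.Lib.Orth.Bridge.mem_isometryGroup_iff]
    intro u
    have hu : u = mapV (e : F →+* K) (mapV (e.symm : K →+* F) u) := by
      funext i
      simp [mapV]
    rw [hu, ← mapV_mulVec, h, h]
    congr 1
    exact (Cfsg.Agent.Lib.Orth.Bridge.mem_isometryGroup_iff _ _).mp g.2 _⟩
  invFun g := ⟨Matrix.GeneralLinearGroup.map (e.symm : K →+* F) g.1, by
    rw [Cfsg.Agent.Lib.Orth.Bridge.mem_isometryGroup_iff]
    intro u
    apply e.injective
    rw [← h, ← h, mapV_mulVec]
    have h1 : ((Matrix.GeneralLinearGroup.map (e : F →+* K)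
        (Matrix.GeneralLinearGroup.map (e.symm : K →+* F) g.1) : GL ι K)) = g.1 := by
      apply Units.ext
      ext i j
      simp
    rw [h1]
    exact (Cfsg.Agent.Lib.Orth.Bridge.mem_isometryGroup_iff _ _).mp g.2 _⟩
  left_inv g := by
    apply Subtype.ext
    apply Units.ext
    ext i j
    simp
  right_inv g := by
    apply Subtype.ext
    apply Units.ext
    ext i j
    simp
  map_mul' a b := by
    apply Subtype.ext
    simp

theorem isoCongr_val (e : F ≃+* K) (Q₁ : (ι → F) → F) (Q₂ : (ι → K) → K)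
    (h : ∀ v, Q₂ (mapV (e : F →+* K) v) = e (Q₁ v)) (g : isometryGroup F Q₁) (i j : ι) :
    (((isoCongr e Q₁ Q₂ h g : isometryGroup K Q₂) : GL ι K) : Matrix ι ι K) i j =
      e (((g : GL ι F) : Matrix ι ι F) i j) := rfl

theorem det_isoCongr (e : F ≃+* K) (Q₁ : (ι → F) → F) (Q₂ : (ι → K) → K)
    (h : ∀ v, Q₂ (mapV (e : F →+* K) v) = e (Q₁ v)) (g : isometryGroup F Q₁) :
    (((isoCongr e Q₁ Q₂ h g : isometryGroup K Q₂) : GL ι K) : Matrix ι ι K).det =
      e (((g : GL ι F) : Matrix ι ι F)).det := by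
  have : (((isoCongr e Q₁ Q₂ h g : isometryGroup K Q₂) : GL ι K) : Matrix ι ι K) =
      (e : F →+* K).mapMatrix ((g : GL ι F) : Matrix ι ι F) := by
    ext i j
    rfl
  rw [this, ← RingHom.map_det]
  rfl

theorem mem_so_iff {R : Type*} [Field R] (Q : (ι → R) → R) (g : isometryGroup R Q) :
    g ∈ specialIsometryGroup R Q ↔ ((g : GL ι R) : Matrix ι ι R).det = 1 := by
  rw [specialIsometryGroup, MonoidHom.mem_ker]
  constructor
  · intro h
    have := congrArg Units.val h
    simpa using this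
  · intro h
    apply Units.ext
    simpa using h

/-- Special isometry groups transfer along a ring isomorphism. -/
noncomputable def soCongr (e : F ≃+* K) (Q₁ : (ι → F) → F) (Q₂ : (ι → K) → K)
    (h : ∀ v, Q₂ (mapV (e : F →+* K) v) = e (Q₁ v)) :
    specialIsometryGroup F Q₁ ≃* specialIsometryGroup K Q₂ :=
  (isoCongr e Q₁ Q₂ h).subgroupMap _ |>.trans (MulEquiv.subgroupCongr (by
    ext x
    constructor
    · rintro ⟨g, hg, rfl⟩
      rw [SetLike.mem_coe, mem_so_iff] at hg
      rw [mem_so_iff]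
      show (((isoCongr e Q₁ Q₂ h g : isometryGroup K Q₂) : GL ι K) : Matrix ι ι K).det = 1
      rw [det_isoCongr, hg, map_one]
    · intro hx
      refine ⟨(isoCongr e Q₁ Q₂ h).symm x, ?_, by simp⟩
      rw [mem_so_iff] at hx
      rw [SetLike.mem_coe, mem_so_iff]
      apply e.injective
      rw [map_one, ← hx, ← det_isoCongr e Q₁ Q₂ h]
      simp))

end Cfsg.Agent.Lib.PermRepO.Transfer
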